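import Cfsg.Agent.S0200

/-!
# S4095 at the prime 2: an abstract form of the Baer–Suzuki argument (helper383)

`mem_two_core` : if `b ∈ Y`, `N` is a normal subgroup of exponent 2 of `Y` with `b² ∈ N` and all commutators
`(b y b⁻¹)⁻¹ y`, `y` of odd order, are trivial or of even order, then `b ∈ O_2(Y)`.
-/

set_option autoImplicit false

namespace Cfsg.Agent.H383.W2

open Subgroup

/-- reindexing of a periodic product -/
theorem prod_reindex {M : Type*} [CommMonoid M] {m k : ℕ} (hm : 0 < m) (hk : Nat.Coprime k m) (F : ℕ → M)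
    (hF : ∀ i, F (i % m) = F i) : ∏ i ∈ Finset.range m, F (k * i) = ∏ i ∈ Finset.range m, F i := by
  classical
  have himg : (Finset.range m).image (fun i => (k * i) % m) = Finset.range m := by
    apply Finset.eq_of_subset_of_card_le
    · intro i hi
      obtain ⟨j, -, rfl⟩ := Finset.mem_image.1 hi
      exact Finset.mem_range.2 (Nat.mod_lt _ hm)
    · rw [Finset.card_image_of_injOn]
      intro i hi j hj hij
      have hi' : i < m := Finset.mem_range.1 hi
      have hj' : j < m := Finset.mem_range.1 hj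
      have h1 : k * i ≡ k * j [MOD m] := hij
      have h2 : i ≡ j [MOD m] := Nat.ModEq.cancel_left_of_coprime (by rw [Nat.gcd_comm]; exact hk) h1
      rw [Nat.ModEq, Nat.mod_eq_of_lt hi', Nat.mod_eq_of_lt hj'] at h2
      exact h2
  conv_rhs => rw [← himg]
  rw [Finset.prod_image]
  · exact Finset.prod_congr rfl fun i _ => (hF (k * i)).symm
  · intro i hi j hj hij
    have hi' : i < m := Finset.mem_range.1 hi
    have hj' : j < m := Finset.mem_range.1 hj
    have h1 : k * i ≡ k * j [MOD m] := hij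
    have h2 : i ≡ j [MOD m] := Nat.ModEq.cancel_left_of_coprime (by rw [Nat.gcd_comm]; exact hk) h1
    rw [Nat.ModEq, Nat.mod_eq_of_lt hi', Nat.mod_eq_of_lt hj'] at h2
    exact h2

section

variable {Y : Type*} [Group Y]

theorem norm_eq {N : Subgroup Y} [hNn : N.Normal] (hN : ∀ x ∈ N, x * x = 1) {u c : Y} (hu : u ∈ N) {m : ℕ}
    (hm : Odd m) (hc : c ^ m = 1) (h : (u * c⁻¹) ^ m = 1) : (u * c ^ 2) ^ m = 1 := by
  classical
  have hcomm : ∀ x y : N, x * y = y * x := by
    intro x y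
    have h1 := hN _ (x * y).2
    have h2 := hN _ x.2
    have h3 := hN _ y.2
    apply Subtype.ext
    change (x : Y) * y = y * x
    have h4 : ((x : Y) * y) * (x * y) = 1 := h1
    have h5 : (x : Y)⁻¹ = x := inv_eq_of_mul_eq_one_left h2
    have h6 : (y : Y)⁻¹ = y := inv_eq_of_mul_eq_one_left h3
    have h7 : ((x : Y) * y)⁻¹ = x * y := inv_eq_of_mul_eq_one_left h4
    rw [mul_inv_rev, h5, h6] at h7
    exact h7.symm
  let _ : CommGroup N := { (inferInstance : Group N) with mul_comm := hcomm }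
  -- the norm
  have hform : ∀ (x : Y) (n : ℕ), (u * x) ^ n =
      ((∏ i ∈ Finset.range n, ((MulAut.conjNormal x : MulAut N) ^ i) ⟨u, hu⟩ : N) : Y) * x ^ n := by
    intro x n
    induction n with
    | zero => simp
    | succ n ih =>
      rw [pow_succ, ih, Finset.prod_range_succ]
      have h1 : ((((MulAut.conjNormal x : MulAut N) ^ n) ⟨u, hu⟩ : N) : Y) = x ^ n * u * (x ^ n)⁻¹ := by
        rw [← map_pow, MulAut.conjNormal_apply]
      rw [Subgroup.coe_mul, h1, pow_succ]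
      group
  obtain ⟨k, hk⟩ : ∃ k, m = 2 * k + 1 := hm
  by_cases hk0 : k = 0
  · subst hk0
    rw [hk, mul_zero, zero_add, pow_one] at hc h ⊢
    rw [hc, inv_one, mul_one] at h
    rw [hc, h]
    simp
  have hm0 : 0 < m := by omega
  set χ : MulAut N := MulAut.conjNormal c⁻¹ with hχ
  have hχm : χ ^ m = 1 := by rw [hχ, ← map_pow, inv_pow, hc, inv_one, map_one]
  have hχc : (MulAut.conjNormal (c ^ 2) : MulAut N) = χ ^ (m - 2) := by
    rw [hχ, ← map_pow]
    congr 1
    have h1 : c⁻¹ ^ (m - 2) * c⁻¹ ^ 2 = 1 := by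
      rw [← pow_add, Nat.sub_add_cancel (by omega), inv_pow, hc, inv_one]
    rw [inv_pow c 2, mul_inv_eq_one] at h1
    exact h1.symm
  have h1 := hform c⁻¹ m
  rw [h, inv_pow, hc, inv_one, mul_one] at h1
  have h2 : (∏ i ∈ Finset.range m, (χ ^ i) ⟨u, hu⟩ : N) = 1 := Subtype.ext h1.symm
  have h3 := hform (c ^ 2) m
  rw [hχc] at h3
  have h4 : (∏ i ∈ Finset.range m, ((χ ^ (m - 2)) ^ i) ⟨u, hu⟩ : N) = 1 := by
    rw [← h2]
    have h5 := prod_reindex (m := m) (k := m - 2) hm0 ?_ (fun i => (χ ^ i) (⟨u, hu⟩ : N)) ?_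
    · rw [← h5]
      refine Finset.prod_congr rfl fun i _ => ?_
      rw [← pow_mul]
    · -- coprime
      have h6 : Nat.Coprime 2 m := by rw [Nat.coprime_two_left]; exact ⟨k, hk⟩
      have h7 : Nat.Coprime (m - 2) m := by
        have h8 : m = (m - 2) + 2 := by omega
        conv_rhs => rw [h8]
        rw [Nat.coprime_self_add_right]
        have h9 : Nat.Coprime (m - 2) 2 := by
          rw [Nat.coprime_two_right]
          exact ⟨k - 1, by omega⟩
        exact h9
      exact h7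
    · intro i
      have h6 : χ ^ (i % m) = χ ^ i := by
        conv_rhs => rw [← Nat.mod_add_div i m, pow_add, pow_mul, hχm, one_pow, mul_one]
      change (χ ^ (i % m)) _ = (χ ^ i) _
      rw [h6]
  rw [h3, h4, ← pow_mul, mul_comm 2 m, pow_mul, hc, one_pow]
  simp

/-- **Baer–Suzuki.** -/
theorem mem_two_core [Finite Y] {b : Y}
    (hbad : ∀ y : Y, Odd (orderOf y) → (b * y * b⁻¹)⁻¹ * y = 1 ∨ 2 ∣ orderOf ((b * y * b⁻¹)⁻¹ * y))
    {N : Subgroup Y} [hNn : N.Normal] (hN : ∀ x ∈ N, x * x = 1) (hbb : b * b ∈ N) :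
    ∃ M : Subgroup Y, M.Normal ∧ IsPGroup 2 M ∧ b ∈ M := by
  have hN2 : IsPGroup 2 N := fun x => ⟨1, by
    rw [pow_one, pow_two]
    exact Subtype.ext (hN x x.2)⟩
  by_cases hb : b ∈ N
  · exact ⟨N, hNn, hN2, hb⟩
  by_contra hcon
  set π := QuotientGroup.mk' N with hπ
  have hπ1 : ∀ y : Y, π y = 1 ↔ y ∈ N := fun y => QuotientGroup.eq_one_iff y
  have hb1 : π b ≠ 1 := fun h => hb ((hπ1 b).1 h)
  have ho : orderOf (π b) = 2 := orderOf_eq_prime (by
    rw [← map_pow, pow_two]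
    exact (hπ1 _).2 hbb) hb1
  obtain ⟨g, hg1, hgo, hg⟩ := Cfsg.Agent.S0200.result (π b) ho (fun M hM hM2 hbM => by
    refine hcon ⟨M.comap π, hM.comap π, ?_, hbM⟩
    refine hM2.comap_of_ker_isPGroup π ?_
    rw [hπ, QuotientGroup.ker_mk']
    exact hN2)
  obtain ⟨c0, rfl⟩ := QuotientGroup.mk'_surjective N g
  obtain ⟨k, m, hm, hkm⟩ := Nat.exists_eq_pow_mul_and_not_dvd (orderOf_pos c0).ne' 2 (by norm_num)
  have hmodd : Odd m := by rw [← Nat.not_even_iff_odd, even_iff_two_dvd]; exact hm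
  set c := c0 ^ 2 ^ k with hc
  have hcm : orderOf c = m := by
    rw [hc, orderOf_pow_of_dvd (pow_ne_zero _ (by norm_num)) (by rw [hkm]; exact dvd_mul_right _ _), hkm,
      Nat.mul_div_cancel_left _ (pow_pos (by norm_num) _)]
  have hcm1 : c ^ m = 1 := by rw [← hcm]; exact pow_orderOf_eq_one c
  have hcπ : π c = (π c0) ^ 2 ^ k := by rw [hc, map_pow]
  have hcπ1 : π c ≠ 1 := by
    intro h1
    apply hg1
    rw [hcπ] at h1
    have h2 : orderOf (π c0) ∣ 2 ^ k := orderOf_dvd_of_pow_eq_one h1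
    have h3 : Nat.Coprime (orderOf (π c0)) (2 ^ k) := Nat.Coprime.pow_right k (Nat.coprime_two_right.2 hgo)
    exact orderOf_eq_one_iff.1 (Nat.eq_one_of_dvd_coprimes h3 dvd_rfl h2)
  have hinv : π b * π c * (π b)⁻¹ = (π c)⁻¹ := by
    rw [hcπ, ← inv_pow, ← hg, conj_pow]
  have hu : b * c * b⁻¹ * c ∈ N := by
    rw [← hπ1, map_mul, map_mul, map_mul, map_inv, hinv, inv_mul_cancel]
  set u := b * c * b⁻¹ * c with hudef
  have huc : b * c * b⁻¹ = u * c⁻¹ := by rw [hudef]; group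
  have h1 : (u * c⁻¹) ^ m = 1 := by rw [← huc, conj_pow, hcm1]; group
  have h2 := norm_eq hN hu hmodd hcm1 h1
  have hui : u⁻¹ = u := inv_eq_of_mul_eq_one_left (hN u hu)
  have hw : (b * c * b⁻¹)⁻¹ * c = c * (u * c ^ 2) * c⁻¹ := by
    rw [huc, mul_inv_rev, inv_inv, hui, pow_two]
    group
  have hwm : ((b * c * b⁻¹)⁻¹ * c) ^ m = 1 := by rw [hw, conj_pow, h2]; group
  rcases hbad c (by rw [hcm]; exact hmodd) with h3 | h3
  · have h4 : π ((b * c * b⁻¹)⁻¹ * c) = 1 := by rw [h3, map_one]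
    rw [map_mul, map_inv, map_mul, map_mul, map_inv, hinv, inv_inv, ← pow_two] at h4
    have h5 : orderOf (π c) ∣ 2 := orderOf_dvd_of_pow_eq_one h4
    have h6 : orderOf (π c) ∣ m := orderOf_dvd_of_pow_eq_one (by rw [← map_pow, hcm1, map_one])
    exact hcπ1 (orderOf_eq_one_iff.1 (Nat.eq_one_of_dvd_coprimes (Nat.coprime_two_left.2 hmodd) h5 h6))
  · have h4 := h3.trans (orderOf_dvd_of_pow_eq_one hwm)
    exact hm h4

end

end Cfsg.Agent.H383.W2
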