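import Cfsg.Agent.H968.TwoM22Fact
import Cfsg.Agent.H729.PairMathieu
import Cfsg.Agent.H992.Stages.Mathieu
import Cfsg.Agent.SporadicStructure.M22Syl11
import Cfsg.Agent.KFacts.MM.Main
import Cfsg.Agent.H383.W2.SheetMM

/-!
# S4095 at the prime 2: facts about `M22` (helper383)

* `q55` : a subgroup of order 55;
* `cent_lt` : the centralizers of the elements of odd prime order have order less than 55;
* `cent_lt_two` : the centralizers of the 2-elements of order at least 4 have order less than 55.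
-/

set_option autoImplicit false

namespace Cfsg.Agent.H383.W2

open Cfsg Subgroup
open Cfsg.Agent.SporadicA.GolayBase Cfsg.Agent.SporadicA.GolayPerm
open Cfsg.Agent.SporadicStructure.M24El Cfsg.Agent.H729.Trans Cfsg.Agent.H729.MData Cfsg.Agent.H729.Count
open Cfsg.Agent.H729.M24Deg Cfsg.Agent.H729.M22Deg Cfsg.Agent.H729.PairMathieu Cfsg.Agent.H968.TwoTool

/-- the centralizers of conjugate elements -/
theorem card_cent_conj {G : Type*} [Group G] {x y : G} (h : IsConj x y) :
    Nat.card (centralizer ({x} : Set G)) = Nat.card (centralizer ({y} : Set G)) := by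
  obtain ⟨c, rfl⟩ := isConj_iff.1 h
  exact card_cent_congr (MulAut.conj c) x

/-- elements generating Sylow subgroups of prime order -/
theorem card_cent_of_prime {G : Type*} [Group G] [Finite G] {p : ℕ} (hp : p.Prime) (h2 : ¬ p * p ∣ Nat.card G) {x y : G}
    (hx : orderOf x = p) (hy : orderOf y = p) :
    Nat.card (centralizer ({y} : Set G)) ≤ Nat.card (centralizer ({x} : Set G)) := by
  have : Fact p.Prime := ⟨hp⟩
  have h0 : Nat.card G ≠ 0 := Nat.card_pos.ne'
  have hf : (Nat.card G).factorization p = 1 := by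
    have h1 : 1 ≤ (Nat.card G).factorization p := (hp.pow_dvd_iff_le_factorization h0).1 (by
      rw [pow_one, ← hx]
      exact orderOf_dvd_natCard x)
    have h3 : ¬ 2 ≤ (Nat.card G).factorization p := fun h => h2 (by
      rw [← pow_two]
      exact (hp.pow_dvd_iff_le_factorization h0).2 h)
    omega
  let P : Sylow p G := Sylow.ofCard (zpowers y) (by rw [Nat.card_zpowers, hy, hf, pow_one])
  have hX : IsPGroup p (zpowers x) := IsPGroup.of_card (n := 1) (by rw [Nat.card_zpowers, hx, pow_one])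
  obtain ⟨P1, hP1⟩ := hX.exists_le_sylow
  obtain ⟨g, hg⟩ := MulAction.exists_smul_eq G P1 P
  have h1 : g * x * g⁻¹ ∈ (g • P1 : Sylow p G) := by
    rw [Sylow.smul_def]
    exact ⟨x, hP1 (mem_zpowers x), rfl⟩
  rw [hg] at h1
  have h3 : g * x * g⁻¹ ∈ zpowers y := h1
  rw [card_cent_conj (isConj_iff.2 ⟨g, rfl⟩ : IsConj x (g * x * g⁻¹))]
  apply card_le_of_le
  intro s hs
  rw [mem_centralizer_singleton_iff] at hs ⊢
  obtain ⟨i, hi⟩ := h3
  have h4 : Commute s y := hs
  have h5 : y ^ i = g * x * g⁻¹ := hi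
  rw [← h5]
  exact (h4.zpow_right i).eq

theorem q55 : ∃ Q : Subgroup Spor.M22, Nat.card Q = 55 := by
  have h1 : Cfsg.Agent.SporadicStructure.M22Syl11.N0 ≤ Spor.M22 := by
    intro g hg
    exact (SporadicA.MathieuRecog.mem_M22_iff g).2 hg.1
  refine ⟨(Cfsg.Agent.SporadicStructure.M22Syl11.N0).subgroupOf Spor.M22, ?_⟩
  rw [← Cfsg.Agent.SporadicStructure.M22Syl11.card_N0]
  exact Nat.card_congr (Subgroup.subgroupOfEquivOfLe h1).toEquiv

theorem finite22 : Finite Spor.M22 := Nat.finite_of_card_ne_zero (by rw [Cfsg.Agent.H729.M22Deg.card_M22]; norm_num)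

/-- the centralizer of an element of order 5 -/
theorem cent5 : ∃ x : Spor.M22, orderOf x = 5 ∧ Nat.card (centralizer ({x} : Set Spor.M22)) ≤ 5 := by
  have : Fact (Nat.Prime 5) := ⟨by norm_num⟩
  obtain ⟨x, hx⟩ := exists_el (ok_of_pre preM5) (by decide +kernel) (by decide +kernel)
  have hx5 : orderOf x = 5 := by rw [← orderOf_inc, hx, oM5]
  have hfin : Finite Spor.M22 := finite22
  refine ⟨x, hx5, ?_⟩
  have h1 : ∀ z ∈ centralizer ({x} : Set Spor.M22), z ^ 5 = 1 := fun z hz =>
    pow_eq_one_of_list inc inc_injective preM5 hx (fun g => st_M (by decide +kernel) g) (n := 5)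
      (by decide +kernel) (mem_centralizer_singleton_iff.1 hz)
  have h2 : IsPGroup 5 (centralizer ({x} : Set Spor.M22)) := fun z => ⟨1, by
    rw [pow_one]
    exact Subtype.ext (h1 z z.2)⟩
  obtain ⟨n, hn⟩ := IsPGroup.iff_card.1 h2
  have h3 : 5 ^ n ∣ 443520 := by
    rw [← hn, ← Cfsg.Agent.H729.M22Deg.card_M22]
    exact card_subgroup_dvd_card _
  have h4 : n ≤ 1 := by
    by_contra h
    have h5 : 5 ^ 2 ∣ 443520 := (pow_dvd_pow 5 (by omega : 2 ≤ n)).trans h3
    norm_num at h5
  rw [hn]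
  exact Nat.pow_le_pow_right (by norm_num) h4 |>.trans (by norm_num)

/-- **The centralizers of the elements of odd prime order.** -/
theorem cent_lt (w : Spor.M22) (hw : (orderOf w).Prime) (hw2 : orderOf w ≠ 2) :
    Nat.card (centralizer ({w} : Set Spor.M22)) < 55 := by
  have hfin : Finite Spor.M22 := finite22
  have hc : Nat.card Spor.M22 = 443520 := Cfsg.Agent.H729.M22Deg.card_M22
  have hdvd : orderOf w ∣ 443520 := by
    rw [← hc]
    exact orderOf_dvd_natCard w
  have hT := H968.TwoM22.three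
  have hcases : orderOf w = 3 ∨ orderOf w = 5 ∨ orderOf w = 7 ∨ orderOf w = 11 := by
    have h1 : (443520 : ℕ) = 2 ^ 7 * (3 ^ 2 * (5 * (7 * 11))) := by norm_num
    rw [h1] at hdvd
    rcases (Nat.Prime.dvd_mul hw).1 hdvd with h | h
    · exact absurd ((Nat.prime_dvd_prime_iff_eq hw Nat.prime_two).1 (hw.dvd_of_dvd_pow h)) hw2
    rcases (Nat.Prime.dvd_mul hw).1 h with h | h
    · exact Or.inl ((Nat.prime_dvd_prime_iff_eq hw Nat.prime_three).1 (hw.dvd_of_dvd_pow h))
    rcases (Nat.Prime.dvd_mul hw).1 h with h | h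
    · exact Or.inr (Or.inl ((Nat.prime_dvd_prime_iff_eq hw (by norm_num)).1 h))
    rcases (Nat.Prime.dvd_mul hw).1 h with h | h
    · exact Or.inr (Or.inr (Or.inl ((Nat.prime_dvd_prime_iff_eq hw (by norm_num)).1 h)))
    · exact Or.inr (Or.inr (Or.inr ((Nat.prime_dvd_prime_iff_eq hw (by norm_num)).1 h)))
  rcases hcases with h | h | h | h
  · obtain ⟨s, t, g, -, -, -, -, h36, hs, -, -⟩ := hT.three
    rw [← card_cent_conj (hs w h), h36]
    norm_num
  · obtain ⟨x, hx, hx5⟩ := cent5
    exact lt_of_le_of_lt ((card_cent_of_prime (by norm_num) (by rw [hc]; norm_num) hx h).trans hx5) (by norm_num)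
  · obtain ⟨x, hx, hx7⟩ := hT.seven
    exact lt_of_le_of_lt ((card_cent_of_prime (by norm_num) (by rw [hc]; norm_num) hx h).trans hx7) (by norm_num)
  · obtain ⟨x, hx, hx11⟩ := hT.eleven
    exact lt_of_le_of_lt ((card_cent_of_prime (by norm_num) (by rw [hc]; norm_num) hx h).trans hx11) (by norm_num)

/-- an element commuting with an element of order 3 -/
theorem pow_six {w z : Spor.M22} (hw : orderOf w = 3) (hz : z * w = w * z) : z ^ 6 = 1 := by
  obtain ⟨s0, t, g, -, -, -, -, -, hs0, -, -⟩ := H968.TwoM22.three.three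
  obtain ⟨s, hs⟩ := exists_el H968.TwoM22.ok_s (by decide +kernel) (by decide +kernel)
  have hos : orderOf s = 3 := by rw [← orderOf_inc, hs, H968.TwoM22.os]
  obtain ⟨c, hc⟩ := isConj_iff.1 (((hs0 w hw).symm).trans (hs0 s hos))
  have h1 : Commute (c * z * c⁻¹) s := by
    change (c * z * c⁻¹) * s = s * (c * z * c⁻¹)
    rw [← hc]
    calc c * z * c⁻¹ * (c * w * c⁻¹) = c * (z * w) * c⁻¹ := by group
      _ = c * (w * z) * c⁻¹ := by rw [hz]
      _ = _ := by group
  have h2 := pow_eq_one_of_list inc inc_injective H968.TwoM22.pre3 hs (fun g => st_M (by decide +kernel) g) (n := 6)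
    (by decide +kernel) h1
  rw [conj_pow, mul_inv_eq_one] at h2
  exact mul_left_cancel (a := c) (by rw [h2, mul_one])

/-- **The centralizers of the 2-elements of order at least 4.** -/
theorem cent_lt_two {s : Spor.M22} {n : ℕ} (hn : s ^ 2 ^ n = 1) (hs : s * s ≠ 1) :
    Nat.card (centralizer ({s} : Set Spor.M22)) < 55 := by
  have hfin : Finite Spor.M22 := finite22
  by_contra hcon
  push Not at hcon
  obtain ⟨k, hk, hk'⟩ := (Nat.dvd_prime_pow Nat.prime_two).1 (orderOf_dvd_of_pow_eq_one hn)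
  have hk2 : 2 ≤ k := by
    by_contra h
    apply hs
    have h1 : s ^ 2 ^ k = 1 := by rw [← hk']; exact pow_orderOf_eq_one s
    rw [← pow_two]
    have h2 : (2 : ℕ) ^ k ∣ 2 := by
      have h3 : k ≤ 1 := by omega
      simpa using pow_dvd_pow 2 h3
    obtain ⟨m, hm⟩ := h2
    rw [hm, pow_mul, h1, one_pow]
  -- the involution
  set τ := s ^ 2 ^ (k - 1) with hτ
  have hoτ : orderOf τ = 2 := by
    rw [hτ, orderOf_pow_of_dvd (pow_ne_zero _ (by norm_num)) (by rw [hk']; exact pow_dvd_pow 2 (by omega)), hk']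
    obtain ⟨j, rfl⟩ : ∃ j, k = j + 1 := ⟨k - 1, by omega⟩
    rw [Nat.add_sub_cancel, pow_succ, Nat.mul_div_cancel_left _ (pow_pos (by norm_num) _)]
  have h384 := H992.Stages.card_cent_m22 hoτ
  have hle : centralizer ({s} : Set Spor.M22) ≤ centralizer ({τ} : Set Spor.M22) := by
    intro x hx
    rw [mem_centralizer_singleton_iff] at hx ⊢
    have h1 : Commute x s := hx
    exact (h1.pow_right _).eq
  have hdvd := card_dvd_of_le hle
  rw [h384] at hdvd
  have h3 : ¬ 3 ∣ Nat.card (centralizer ({s} : Set Spor.M22)) := by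
    intro h3
    have : Fact (Nat.Prime 3) := ⟨Nat.prime_three⟩
    obtain ⟨w, hw⟩ := exists_prime_orderOf_dvd_card' 3 h3
    have hw' : orderOf (w : Spor.M22) = 3 := by rw [Subgroup.orderOf_coe, hw]
    have h4 : s * (w : Spor.M22) = w * s := (mem_centralizer_singleton_iff.1 w.2).symm
    have h5 := pow_six hw' h4
    have h6 : orderOf s ∣ 6 := orderOf_dvd_of_pow_eq_one h5
    rw [hk'] at h6
    have h7 : 2 ^ 2 ∣ 6 := (pow_dvd_pow 2 hk2).trans h6
    norm_num at h7
  -- so it is a 2-group of order at least 64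
  obtain ⟨SK, V, W, z, c, H⟩ := KFacts.MM.Main.sheet22
  have h128 : Nat.card SK = 128 := by
    have : Fact (Nat.Prime 2) := ⟨Nat.prime_two⟩
    obtain ⟨P, hP⟩ := H.two.exists_le_sylow
    have h1 : (P : Subgroup Spor.M22) = SK := H.max P P.2 hP
    have h2 := Sylow.card_eq_multiplicity P
    rw [Cfsg.Agent.H729.M22Deg.card_M22] at h2
    have h4 : (443520 : ℕ).factorization 2 = 7 := by
      have h5 : (443520 : ℕ) = 2 ^ 7 * 3465 := by norm_num
      rw [h5, Nat.factorization_mul (by norm_num) (by norm_num), Nat.Prime.factorization_pow Nat.prime_two]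
      simp [Nat.factorization_eq_zero_of_not_dvd (show ¬ 2 ∣ 3465 by norm_num)]
    rw [h4] at h2
    rw [← h1]
    exact h2
  set C := centralizer ({s} : Set Spor.M22) with hC
  have hC2 : Nat.card C ∣ 2 ^ 7 := by
    have h1 : (384 : ℕ) = 2 ^ 7 * 3 := by norm_num
    rw [h1] at hdvd
    exact Nat.Coprime.dvd_of_dvd_mul_right ((Nat.Prime.coprime_iff_not_dvd Nat.prime_three).2 h3).symm hdvd
  obtain ⟨j, hj, hj'⟩ := (Nat.dvd_prime_pow Nat.prime_two).1 hC2
  have h64 : 64 ≤ Nat.card C := by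
    rw [hj'] at hcon ⊢
    have h5 : 6 ≤ j := by
      by_contra h
      have h6 : 2 ^ j ≤ 2 ^ 5 := Nat.pow_le_pow_right (by norm_num) (by omega)
      omega
    exact (by norm_num : 64 = 2 ^ 6) ▸ Nat.pow_le_pow_right (by norm_num) h5
  have hCp : IsPGroup 2 C := IsPGroup.of_card hj'
  have : Fact (Nat.Prime 2) := ⟨Nat.prime_two⟩
  obtain ⟨P, hP⟩ := H.two.exists_le_sylow
  have hPS : (P : Subgroup Spor.M22) = SK := H.max P P.2 hP
  obtain ⟨P1, hP1⟩ := hCp.exists_le_sylow
  obtain ⟨g, hg⟩ := MulAction.exists_smul_eq Spor.M22 P1 P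
  have hmem : ∀ x ∈ C, g * x * g⁻¹ ∈ SK := by
    intro x hx
    have h1 : g * x * g⁻¹ ∈ (g • P1 : Sylow 2 Spor.M22) := by
      rw [Sylow.smul_def]
      exact ⟨x, hP1 hx, rfl⟩
    rw [hg] at h1
    rw [← hPS]
    exact h1
  have hsC : s ∈ C := mem_centralizer_singleton_iff.2 rfl
  have h1 := sq_eq_one_of_cent H h128 (s := g * s * g⁻¹) (P := C.map (MulAut.conj g).toMonoidHom) (by
      rintro _ ⟨x, hx, rfl⟩
      exact hmem x hx) (by
      rw [Subgroup.card_map_of_injective (MulAut.conj g).injective]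
      exact h64) (hmem s hsC) (by
      rintro _ ⟨x, hx, rfl⟩
      change g * x * g⁻¹ * (g * s * g⁻¹) = g * s * g⁻¹ * (g * x * g⁻¹)
      have h2 : x * s = s * x := mem_centralizer_singleton_iff.1 hx
      calc g * x * g⁻¹ * (g * s * g⁻¹) = g * (x * s) * g⁻¹ := by group
        _ = g * (s * x) * g⁻¹ := by rw [h2]
        _ = _ := by group)
  apply hs
  have h2 : g * (s * s) * g⁻¹ = 1 := by rw [← h1]; group
  rw [mul_inv_eq_one] at h2
  exact mul_left_cancel (a := g) (by rw [h2, mul_one])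

end Cfsg.Agent.H383.W2
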